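import Cfsg.Agent.H6.HN.H.Pres

set_option autoImplicit false
set_option maxRecDepth 100000
set_option Elab.async false

namespace Cfsg.H6.HN.H

def R2 : List (List ℕ) := R ++ [[1,1,1,1], [2,2,4,1,1,3], [2,2,4,4,4,1,1,3,3,3]]

end Cfsg.H6.HN.H
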