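import Cfsg.Agent.H6.HN.H.Pres
import Cfsg.Agent.H6.HN.H.Chk0

set_option autoImplicit false
set_option maxRecDepth 100000
set_option Elab.async false

namespace Cfsg.H6.HN.H

theorem ptOK : PtOK img 1408 LS EQS := ptOK_of_chk fun p h1 h2 => by
  rw [← ptU_eq]
  exact (range_join (allR_range p0 (by norm_num : 0 + 1216 = 1216)) (allR_range p1 (by norm_num : 1216 + 192 = 1408))) p h1 h2

theorem hrep : repOK 8 434321399574757888 LS EQS D HN.H.R = true := by decide +kernel

theorem rep : Good (evR img 1408 8) 434321399574757888 ∧ Rels (evR img 1408 8) HN.H.R ∧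
    IsAct (MonoidHom.id _) (evR img 1408 8) img 1408 8 := rep_sound ptOK hrep


end Cfsg.H6.HN.H
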